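import Cfsg.Agent.H898.K547.Grp
import Cfsg.Agent.H514.K547.Core
import Cfsg.Agent.H514.K547.Parity
import Cfsg.Agent.H740.K4.Equiv

/-!
# Task 5107 (S4547, [J1]): three good characters (helper898)

`three_abs` : `N` normal of odd index in `L`, `τ ∈ Aut L` of 2-power order modulo inner automorphisms, fixing `N`: three
`τ`-invariant good characters of `N` give three `τ`-invariant good characters of `L`.
`three_of_three` : the form of `S4547_red.lean`.
-/

set_option autoImplicit false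

open scoped ComplexConjugate

namespace Cfsg.Agent.H898.K547

open Cfsg Subgroup Cfsg.Agent.H601.K4 Cfsg.Agent.H821.K547 Cfsg.Agent.H514.K547
open Cfsg.Agent.Characters.Core Cfsg.Agent.OddOrderCharacters.IndRes
open Cfsg.Agent.OddOrderCharacters.NormalInduced

universe u

section Cliff

variable {G : Type u} [Group G] [Fintype G]

/-- Two characters with a common irreducible constituent are not orthogonal. -/
theorem inner_ne_zero {A B χ : G → ℂ} (hA : IsCharacter G A)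
    (hB : IsCharacter G B) (hχ : IsIrrCharacter G χ) (h1 : classInner A χ ≠ 0)
    (h2 : classInner B χ ≠ 0) : classInner A B ≠ 0 := by
  have hA' := OddOrderCharacters.Clifford.isCharacter_sub_irr hA hχ h1
  have hB' := OddOrderCharacters.Clifford.isCharacter_sub_irr hB hχ h2
  have hχc := isIrr_isCharacter hχ
  have e1 : A = χ + (A - χ) := by abel
  have e2 : B = χ + (B - χ) := by abel
  obtain ⟨a, ha⟩ := classInner_isNat hχc hB'
  obtain ⟨b, hb⟩ := classInner_isNat hA' hχc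
  obtain ⟨c, hc⟩ := classInner_isNat hA' hB'
  intro h0
  rw [e1, e2, classInner_add_left, classInner_add_right, classInner_add_right,
    classInner_irr_self hχ, ha, hb, hc] at h0
  have : (1 + a + (b + c) : ℕ) = 0 := by exact_mod_cast h0
  omega

/-- **Clifford**: the irreducible constituents of `χ` on a normal subgroup are conjugate. -/
theorem conj_over (N : Subgroup G) [hN : N.Normal] [Fintype N] {θ φ : N → ℂ}
    (hθ : IsIrrCharacter N θ) (hφ : IsIrrCharacter N φ) {χ : G → ℂ} (hχ : IsIrrCharacter G χ)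
    (h1 : classInner (fun n : N => χ n) θ ≠ 0) (h2 : classInner (fun n : N => χ n) φ ≠ 0) :
    ∃ g : G, conjFn N φ g = θ := by
  rw [← indFun_eq_iff N hθ hφ]
  rcases indFun_eq_or_classInner_eq_zero N hθ hφ with h | h
  · exact h
  · exfalso
    refine inner_ne_zero (isCharacter_indFun N (isIrr_isCharacter hθ))
      (isCharacter_indFun N (isIrr_isCharacter hφ)) hχ ?_ ?_ h
    · rw [classInner_res_symm N (isIrr_isCharacter hθ) (isIrr_isCharacter hχ)]
      exact h1
    · rw [classInner_res_symm N (isIrr_isCharacter hφ) (isIrr_isCharacter hχ)]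
      exact h2

end Cliff

variable {L : Type u} [Group L] [Finite L]

/-- good and `τ`-invariant -/
def GI (τ : MulAut L) (χ : L → ℂ) : Prop := Good χ ∧ ∀ g, χ (τ g) = χ g

/-- good and `τ`-invariant, on the subgroup `N` -/
def GN (τ : MulAut L) (N : Subgroup L) (θ : N → ℂ) : Prop :=
  Good θ ∧ ∀ (n : N) (h : τ n ∈ N), θ ⟨τ n, h⟩ = θ n

/-- the stabiliser of `θ` -/
def stb (N : Subgroup L) [N.Normal] (θ : N → ℂ) : Subgroup L where
  carrier := {t | ∀ n : N, θ (MulAut.conjNormal t n) = θ n}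
  one_mem' := fun n => by rw [map_one, MulAut.one_apply]
  mul_mem' := by
    intro s t hs ht n
    rw [map_mul, MulAut.mul_apply, hs, ht]
  inv_mem' := by
    intro t ht n
    have h := ht (MulAut.conjNormal t⁻¹ n)
    rw [← h, ← MulAut.mul_apply, ← map_mul, mul_inv_cancel, map_one, MulAut.one_apply]

theorem eq_of_over (P : Sylow 2 L) (τ : MulAut L) (N : Subgroup L) [N.Normal] (hidx : ¬ 2 ∣ N.index)
    (hτN : ∀ n ∈ N, τ n ∈ N) (hK : (KK P N).Normal) (hKi : ∀ c ∈ KK P N, τ c ∈ KK P N)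
    (hfix : ∀ y, qAut τ (KK P N) hKi y = y → y = 1) {θ θ' : N → ℂ} (hθ : GN τ N θ) (hθ' : GN τ N θ') {g : L}
    (hg : conjFn N θ' g = θ) : θ = θ' := by
  have hcf : IsClassFunction N θ' := isIrr_isClassFunction hθ'.1.odd.1
  have hg' : ∀ n : N, θ n = θ' (MulAut.conjNormal g n) := fun n => by rw [← hg]; rfl
  -- the stabiliser contains `K`
  have hKT : KK P N ≤ stb N θ' := by
    refine sup_le (fun n hn m => ?_) (fun c hc m => conj_centralizer P N hidx hθ'.1 hc m)
    exact hcf m ⟨n, hn⟩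
  -- `τ`-invariance
  have hTτ : ∀ t ∈ stb N θ', τ t ∈ stb N θ' := by
    intro t ht m
    obtain ⟨m', hm', hm⟩ : (m : L) ∈ N.map (τ : L ≃* L).toMonoidHom := by
      rw [map_eq_of_inv τ hτN]
      exact m.2
    have hm2 : τ m' = m := hm
    have e1 : m = ⟨τ m', hτN m' hm'⟩ := Subtype.ext hm2.symm
    have e2 : (MulAut.conjNormal (τ t) m : N) = ⟨τ (MulAut.conjNormal t (⟨m', hm'⟩ : N) : N), hτN _ (SetLike.coe_mem _)⟩ := by
      apply Subtype.ext
      change τ t * m * (τ t)⁻¹ = τ (t * m' * t⁻¹)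
      rw [map_mul, map_mul, map_inv, hm2]
    rw [e2, hθ'.2 _ (hτN _ (SetLike.coe_mem _)), ht, e1, hθ'.2 ⟨m', hm'⟩ (hτN m' hm')]
  -- `τ(g) g⁻¹` is in the stabiliser
  have hgT : τ g * g⁻¹ ∈ stb N θ' := by
    intro n
    have hm0 : (MulAut.conjNormal g⁻¹ n : N) = MulAut.conjNormal g⁻¹ n := rfl
    obtain ⟨m', hm', hm⟩ : ((MulAut.conjNormal g⁻¹ n : N) : L) ∈ N.map (τ : L ≃* L).toMonoidHom := by
      rw [map_eq_of_inv τ hτN]
      exact SetLike.coe_mem _
    have hm2 : τ m' = g⁻¹ * n * g⁻¹⁻¹ := hm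
    have e1 : (MulAut.conjNormal (τ g * g⁻¹) n : N) =
        ⟨τ (MulAut.conjNormal g (⟨m', hm'⟩ : N) : N), hτN _ (SetLike.coe_mem _)⟩ := by
      apply Subtype.ext
      change τ g * g⁻¹ * n * (τ g * g⁻¹)⁻¹ = τ (g * m' * g⁻¹)
      rw [map_mul, map_mul, map_inv, hm2]
      group
    have e2 : (MulAut.conjNormal g⁻¹ n : N) = ⟨τ m', hτN m' hm'⟩ := Subtype.ext hm2.symm
    rw [e1, hθ'.2 _ (hτN _ (SetLike.coe_mem _)), ← hg', ← hθ.2 ⟨m', hm'⟩ (hτN m' hm'), ← e2, hg', ← MulAut.mul_apply,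
      ← map_mul, mul_inv_cancel, map_one, MulAut.one_apply]
  -- `g` is in the stabiliser
  have h1 : qAut τ (KK P N) hKi (g : L ⧸ KK P N) * (g : L ⧸ KK P N)⁻¹ ∈
      (stb N θ').map (QuotientGroup.mk' (KK P N)) := ⟨_, hgT, by rw [qAut_mk]; rfl⟩
  have h2 := mem_of_div (qAut τ (KK P N) hKi) hfix (T := (stb N θ').map (QuotientGroup.mk' (KK P N))) (by
    rintro _ ⟨t, ht, rfl⟩
    exact ⟨τ t, hTτ t ht, rfl⟩) h1
  obtain ⟨t, ht, h3⟩ := h2
  have h4 : t⁻¹ * g ∈ KK P N := QuotientGroup.eq.1 h3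
  have h5 : g ∈ stb N θ' := by
    have := mul_mem ht (hKT h4)
    rwa [mul_inv_cancel_left] at this
  funext n
  rw [hg']
  exact h5 n

/-- **the abstract form** -/
theorem three_abs (τ : MulAut L) (hτ : TwoPow τ) (N : Subgroup L) [N.Normal] (hidx : ¬ 2 ∣ N.index)
    (hτN : ∀ n ∈ N, τ n ∈ N) {a b c : N → ℂ} (ha : GN τ N a) (hb : GN τ N b) (hc : GN τ N c) (hab : a ≠ b)
    (hac : a ≠ c) (hbc : b ≠ c) : ∃ a b c : L → ℂ, GI τ a ∧ GI τ b ∧ GI τ c ∧ a ≠ b ∧ a ≠ c ∧ b ≠ c := by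
  classical
  have := two_fact
  let P : Sylow 2 L := default
  have hPN := sylow_le P N hidx
  have hK : (KK P N).Normal := KK_normal P N hidx
  have hKi : ∀ c ∈ KK P N, τ c ∈ KK P N := KK_inv P N hidx τ hτN
  have hPK : (P : Subgroup L) ≤ KK P N := hPN.trans le_sup_left
  by_cases hfix : ∀ y, qAut τ (KK P N) hKi y = y → y = 1
  · have := Fintype.ofFinite L
    have := Fintype.ofFinite N
    have key : ∀ θ : N → ℂ, GN τ N θ → ∃ χ : L → ℂ, GI τ χ ∧ classInner (fun n : N => χ n) θ ≠ 0 := by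
      intro θ hθ
      obtain ⟨χ, h1, h2, m, hm, h3⟩ := exists_good_over N hidx hθ.1 τ hτ hτN (fun h => hθ.2 h _)
      refine ⟨χ, ⟨h1, h2⟩, ?_⟩
      rw [h3]
      intro h0
      rw [Nat.cast_eq_zero.1 h0] at hm
      exact absurd hm (by decide)
    have key2 : ∀ (θ θ' : N → ℂ), GN τ N θ → GN τ N θ' → ∀ χ : L → ℂ, GI τ χ → classInner (fun n : N => χ n) θ ≠ 0 →
        classInner (fun n : N => χ n) θ' ≠ 0 → θ = θ' := by
      intro θ θ' hθ hθ' χ hχ h1 h2
      obtain ⟨g, hg⟩ := conj_over N hθ.1.odd.1 hθ'.1.odd.1 hχ.1.odd.1 h1 h2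
      exact eq_of_over P τ N hidx hτN hK hKi hfix hθ hθ' hg
    obtain ⟨χa, h1, h1'⟩ := key a ha
    obtain ⟨χb, h2, h2'⟩ := key b hb
    obtain ⟨χc, h3, h3'⟩ := key c hc
    refine ⟨χa, χb, χc, h1, h2, h3, ?_, ?_, ?_⟩
    · rintro rfl
      exact hab (key2 a b ha hb _ h1 h1' h2')
    · rintro rfl
      exact hac (key2 a c ha hc _ h1 h1' h3')
    · rintro rfl
      exact hbc (key2 b c hb hc _ h2 h2' h3')
  · push Not at hfix
    obtain ⟨y, hy, hy1⟩ := hfix
    obtain ⟨ψ, hψ, hψ1, hψe⟩ := exists_fixed_irr _ hy hy1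
    have hsurj : Function.Surjective (fun g : L => (g : L ⧸ KK P N)) := QuotientGroup.mk_surjective
    have hodd : Odd (Nat.card (L ⧸ KK P N)) := by
      rw [← Nat.not_even_iff_odd, even_iff_two_dvd]
      intro h
      rw [← Subgroup.index_eq_card] at h
      exact hidx (h.trans (Subgroup.index_dvd_of_le le_sup_left))
    have hreal : ¬ ∀ z, conj (ψ z) = ψ z := by
      intro h
      apply hψ1
      exact S0161.result hodd ⟨ψ, hψ⟩ fun z => Complex.conj_eq_iff_im.1 (h z)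
    refine ⟨fun _ => 1, fun g => ψ (g : L ⧸ KK P N), fun g => conj (ψ (g : L ⧸ KK P N)), ⟨H740.K4.good_one', fun _ => rfl⟩,
      ⟨good_of_quotient P _ hPK le_sup_right hψ, fun g => ?_⟩,
      ⟨good_of_quotient P _ hPK le_sup_right (isIrr_conj hψ), fun g => ?_⟩, fun h => hψ1 ?_, fun h => hψ1 ?_,
      fun h => hreal fun z => ?_⟩
    · exact hψe (g : L ⧸ KK P N)
    · exact congrArg (fun z : ℂ => conj z) (hψe (g : L ⧸ KK P N))
    · funext z
      obtain ⟨g, rfl⟩ := hsurj z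
      exact (congrFun h g).symm
    · funext z
      obtain ⟨g, rfl⟩ := hsurj z
      have h1 : (1 : ℂ) = conj (ψ (g : L ⧸ KK P N)) := congrFun h g
      have h2 := congrArg conj h1
      rw [map_one, Complex.conj_conj] at h2
      exact h2.symm
    · obtain ⟨g, rfl⟩ := hsurj z
      exact (congrFun h g).symm

/-- **[J1]** -/
theorem three_of_three {G : Type u} [Group G] [Finite G] (P : Sylow 2 G) (L N : Subgroup G) [L.Normal] [N.Normal]
    (hNL : N ≤ L) (hodd : ¬ 2 ∣ N.relIndex L) (x : G) (hxP : x ∈ (P : Subgroup G)) (_hx : L ⊔ zpowers x = ⊤)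
    (h : 3 ≤ (gsx N x).ncard) : 3 ≤ (gsx L x).ncard := by
  have := two_fact
  have hτ : TwoPow (MulAut.conjNormal x : MulAut L) := by
    obtain ⟨k, hk⟩ := IsPGroup.iff_orderOf.1 P.2 ⟨x, hxP⟩
    rw [Subgroup.orderOf_mk] at hk
    refine ⟨k, 1, fun y => ?_⟩
    rw [← map_pow, ← hk, pow_orderOf_eq_one, map_one, MulAut.one_apply]
    group
  have hNn : (N.subgroupOf L).Normal := inferInstance
  have hτN : ∀ n ∈ N.subgroupOf L, (MulAut.conjNormal x : MulAut L) n ∈ N.subgroupOf L := by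
    intro n hn
    rw [Subgroup.mem_subgroupOf] at hn ⊢
    exact Normal.conj_mem inferInstance _ hn x
  let e : N.subgroupOf L ≃* N := Subgroup.subgroupOfEquivOfLe hNL
  have hgn : ∀ θ ∈ gsx N x, GN (MulAut.conjNormal x : MulAut L) (N.subgroupOf L) (fun n => θ (e n)) := by
    intro θ hθ
    refine ⟨H740.K4.good_comp e hθ.1, fun n hn => ?_⟩
    exact hθ.2 (e n)
  have hinj : ∀ θ θ' : N → ℂ, (fun n : N.subgroupOf L => θ (e n)) = (fun n => θ' (e n)) → θ = θ' := by
    intro θ θ' h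
    funext n
    have := congrFun h (e.symm n)
    simpa using this
  have h2 : 2 < (gsx N x).ncard := h
  rw [Set.two_lt_ncard_iff (gsx_finite N x)] at h2
  obtain ⟨a, b, c, ha, hb, hc, hab, hac, hbc⟩ := h2
  obtain ⟨a', b', c', ha', hb', hc', hab', hac', hbc'⟩ := three_abs (MulAut.conjNormal x : MulAut L) hτ
    (N.subgroupOf L) hodd hτN (hgn a ha) (hgn b hb) (hgn c hc) (fun h => hab (hinj _ _ h)) (fun h => hac (hinj _ _ h))
    (fun h => hbc (hinj _ _ h))
  have h3 : 2 < (gsx L x).ncard := by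
    rw [Set.two_lt_ncard_iff (gsx_finite L x)]
    exact ⟨a', b', c', ⟨ha'.1, fun n => ha'.2 n⟩, ⟨hb'.1, fun n => hb'.2 n⟩, ⟨hc'.1, fun n => hc'.2 n⟩, hab', hac', hbc'⟩
  exact h3

end Cfsg.Agent.H898.K547
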